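import Mathlib

/-!
# Centralizers of 2-elements of an extension of an extraspecial group (helper714)

`cent_ge`: `G` a finite group, `π : G → K` surjective with central kernel of order two, `R` an elementary abelian normal
subgroup of `K` of order 256, `x ∈ G` whose image in `K/R` has order 1, 2 or 4: `16 ≤ |C(x)|`.
-/

set_option autoImplicit false

namespace Cfsg.Agent.H714.HN

open Subgroup

section abs

theorem card_ker_mul {A B : Type*} [Group A] [Group B] [Finite A] (h : A →* B) :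
    Nat.card A = Nat.card h.range * Nat.card h.ker := by
  rw [← Nat.card_congr (QuotientGroup.quotientKerEquivRange h).toEquiv]
  exact Subgroup.card_eq_card_quotient_mul_card_subgroup h.ker

/-- `|ker (f ∘ f)| ≤ |ker f|²` -/
theorem card_ker_sq {R : Type*} [Group R] [Finite R] (f g : R →* R) (hg : ∀ a, g a = f (f a)) :
    Nat.card g.ker ≤ Nat.card f.ker ^ 2 := by
  have h0 : ∀ a : g.ker, f a ∈ f.ker := by
    intro a
    rw [MonoidHom.mem_ker, ← hg]
    exact a.2
  let h : g.ker →* f.ker := (f.comp g.ker.subtype).codRestrict f.ker h0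
  rw [card_ker_mul h, pow_two]
  refine Nat.mul_le_mul (Nat.card_le_card_of_injective _ h.range.subtype_injective) ?_
  have h2 : ∀ x : h.ker, f (x : g.ker) = 1 := by
    intro x
    exact congrArg Subtype.val (MonoidHom.mem_ker.1 x.2)
  refine Nat.card_le_card_of_injective (fun x => (⟨((x : g.ker) : R), MonoidHom.mem_ker.2 (h2 x)⟩ : f.ker)) ?_
  intro x y hxy
  have h3 : ((x : g.ker) : R) = ((y : g.ker) : R) := Subtype.mk.inj hxy
  exact Subtype.ext (Subtype.ext h3)

variable {R : Type*} [Group R] [Finite R]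

/-- the map `a ↦ σ(a) a` -/
def tw (hc : ∀ a b : R, a * b = b * a) (σ : R →* R) : R →* R where
  toFun a := σ a * a
  map_one' := by rw [map_one, one_mul]
  map_mul' a b := by
    rw [map_mul]
    calc σ a * σ b * (a * b) = σ a * (σ b * a) * b := by group
      _ = σ a * (a * σ b) * b := by rw [hc (σ b) a]
      _ = σ a * a * (σ b * b) := by group

omit [Finite R] in
theorem tw_tw (hc : ∀ a b : R, a * b = b * a) (hs : ∀ a : R, a * a = 1) (σ τ : R →* R) (hτ : ∀ a, τ a = σ (σ a))
    (a : R) : tw hc τ a = tw hc σ (tw hc σ a) := by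
  change τ a * a = σ (σ a * a) * (σ a * a)
  rw [map_mul, hτ]
  calc σ (σ a) * a = σ (σ a) * (σ a * σ a) * a := by rw [hs, mul_one]
    _ = _ := by group

omit [Finite R] in
theorem mem_tw (hc : ∀ a b : R, a * b = b * a) (hs : ∀ a : R, a * a = 1) (σ : R →* R) (a : R) :
    a ∈ (tw hc σ).ker ↔ σ a = a := by
  rw [MonoidHom.mem_ker]
  change σ a * a = 1 ↔ σ a = a
  constructor
  · intro h
    calc σ a = σ a * (a * a) := by rw [hs, mul_one]
      _ = a := by rw [← mul_assoc, h, one_mul]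
  · intro h
    rw [h, hs]

theorem fix_two (hc : ∀ a b : R, a * b = b * a) (hs : ∀ a : R, a * a = 1) (σ : R →* R) (h : ∀ a, σ (σ a) = a) :
    Nat.card R ≤ Nat.card (tw hc σ).ker ^ 2 := by
  have h1 := card_ker_sq (tw hc σ) (tw hc (MonoidHom.id R)) (tw_tw hc hs σ (MonoidHom.id R) (fun a => (h a).symm))
  have h2 : (tw hc (MonoidHom.id R)).ker = ⊤ := by
    rw [eq_top_iff]
    intro a _
    exact (mem_tw hc hs _ a).2 rfl
  rw [h2, Nat.card_congr Subgroup.topEquiv.toEquiv] at h1
  exact h1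

theorem fix_four (hc : ∀ a b : R, a * b = b * a) (hs : ∀ a : R, a * a = 1) (σ : R →* R)
    (h : ∀ a, σ (σ (σ (σ a))) = a) : Nat.card R ≤ Nat.card (tw hc σ).ker ^ 4 := by
  have h1 := card_ker_sq (tw hc σ) (tw hc (σ.comp σ)) (tw_tw hc hs σ (σ.comp σ) (fun a => rfl))
  have h2 := fix_two hc hs (σ.comp σ) h
  calc Nat.card R ≤ Nat.card (tw hc (σ.comp σ)).ker ^ 2 := h2
    _ ≤ (Nat.card (tw hc σ).ker ^ 2) ^ 2 := Nat.pow_le_pow_left h1 2
    _ = _ := by rw [← pow_mul]

end abs

section main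

variable {G K : Type*} [Group G] [Group K] [Finite G] [Finite K]

/-- the fixed points of `y` on `R` -/
theorem fix_ge {R : Subgroup K} [R.Normal] (hc : ∀ a b : R, a * b = b * a) (hs : ∀ a : R, a * a = 1)
    (hR : Nat.card R = 256) (y : K) {m : ℕ} (hm : m = 1 ∨ m = 2 ∨ m = 4) (hy : y ^ m ∈ R) :
    16 ≤ m * Nat.card ↥(R ⊓ centralizer ({y} : Set K)) := by
  let σ : R →* R := (MulAut.conjNormal y : MulAut R).toMonoidHom
  have hσ : ∀ a : R, σ a = MulAut.conjNormal y a := fun a => rfl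
  have hk : Nat.card (tw hc σ).ker ≤ Nat.card ↥(R ⊓ centralizer ({y} : Set K)) := by
    have h1 : ∀ a : (tw hc σ).ker, ((a : R) : K) ∈ R ⊓ centralizer ({y} : Set K) := by
      intro a
      refine mem_inf.2 ⟨(a : R).2, mem_centralizer_singleton_iff.2 ?_⟩
      have h2 := congrArg Subtype.val ((mem_tw hc hs σ a).1 a.2)
      rw [hσ, MulAut.conjNormal_apply] at h2
      exact (mul_inv_eq_iff_eq_mul.1 h2).symm
    refine Nat.card_le_card_of_injective (fun a => (⟨_, h1 a⟩ : ↥(R ⊓ centralizer ({y} : Set K)))) ?_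
    intro a b hab
    have h3 : ((a : R) : K) = ((b : R) : K) := Subtype.mk.inj hab
    exact Subtype.ext (Subtype.ext h3)
  have h1 : ∀ r ∈ R, ∀ a : R, (MulAut.conjNormal r : MulAut R) a = a := by
    intro r hr a
    apply Subtype.ext
    rw [MulAut.conjNormal_apply]
    have := congrArg Subtype.val (hc ⟨r, hr⟩ a)
    change r * (a : K) = a * r at this
    rw [this, mul_inv_cancel_right]
  rcases hm with rfl | rfl | rfl
  · rw [pow_one] at hy
    have h2 : (tw hc σ).ker = ⊤ := by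
      rw [eq_top_iff]
      intro a _
      exact (mem_tw hc hs _ a).2 (by rw [hσ]; exact h1 y hy a)
    rw [h2, Nat.card_congr Subgroup.topEquiv.toEquiv, hR] at hk
    omega
  · have h2 := fix_two hc hs σ (fun a => by
      rw [hσ, hσ, ← MulAut.mul_apply, ← map_mul, ← pow_two]
      exact h1 _ hy a)
    rw [hR] at h2
    have h3 : 16 ≤ Nat.card (tw hc σ).ker := by
      by_contra hcon
      push Not at hcon
      have : Nat.card (tw hc σ).ker ^ 2 < 16 ^ 2 := Nat.pow_lt_pow_left hcon (by norm_num)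
      omega
    omega
  · have h2 := fix_four hc hs σ (fun a => by
      rw [hσ, hσ, hσ, hσ, ← MulAut.mul_apply, ← MulAut.mul_apply, ← MulAut.mul_apply, ← map_mul, ← map_mul, ← map_mul]
      have h3 : y * y * y * y = y ^ 4 := by simp only [pow_succ, pow_zero, one_mul]
      rw [h3]
      exact h1 _ hy a)
    rw [hR] at h2
    have h3 : 4 ≤ Nat.card (tw hc σ).ker := by
      by_contra hcon
      push Not at hcon
      have : Nat.card (tw hc σ).ker ^ 4 < 4 ^ 4 := Nat.pow_lt_pow_left hcon (by norm_num)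
      omega
    omega

omit [Finite K] in
/-- the commutator map on the preimage of the centralizer -/
theorem comm_ge (π : G →* K) (hπ : Function.Surjective π) (hz : ∀ u ∈ π.ker, ∀ g : G, u * g = g * u)
    (hk : Nat.card π.ker = 2) (F : Subgroup K) (x : G) (hF : ∀ a ∈ F, a * π x = π x * a) :
    Nat.card F ≤ Nat.card ↥(F.comap π ⊓ centralizer ({x} : Set G)) := by
  -- `|D| = 2 |F|`
  have h0 : ∀ d : F.comap π, π d ∈ F := fun d => d.2
  let h : F.comap π →* F := (π.comp (F.comap π).subtype).codRestrict F h0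
  have hs : Function.Surjective h := by
    rintro ⟨a, ha⟩
    obtain ⟨g, rfl⟩ := hπ a
    exact ⟨⟨g, ha⟩, rfl⟩
  have h1 := card_ker_mul h
  rw [MonoidHom.range_eq_top.2 hs, Nat.card_congr Subgroup.topEquiv.toEquiv] at h1
  have h2 : 2 ≤ Nat.card h.ker := by
    rw [← hk]
    have h3 : ∀ u : π.ker, (u : G) ∈ F.comap π := by
      intro u
      rw [mem_comap, MonoidHom.mem_ker.1 u.2]
      exact F.one_mem
    have h4 : ∀ u : π.ker, (⟨u, h3 u⟩ : F.comap π) ∈ h.ker := by
      intro u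
      rw [MonoidHom.mem_ker]
      exact Subtype.ext (MonoidHom.mem_ker.1 u.2)
    refine Nat.card_le_card_of_injective (fun u => (⟨⟨u, h3 u⟩, h4 u⟩ : h.ker)) ?_
    intro a b hab
    have h5 : (a : G) = (b : G) := Subtype.mk.inj (Subtype.mk.inj hab)
    exact Subtype.ext h5
  -- the commutator map
  have h5 : ∀ d ∈ F.comap π, x * d * x⁻¹ * d⁻¹ ∈ π.ker := by
    intro d hd
    rw [MonoidHom.mem_ker, map_mul, map_mul, map_mul, map_inv, map_inv, ← hF _ hd]
    group
  let θ : F.comap π →* π.ker :=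
    { toFun := fun d => ⟨x * d * x⁻¹ * (d : G)⁻¹, h5 d d.2⟩
      map_one' := by
        apply Subtype.ext
        change x * 1 * x⁻¹ * 1⁻¹ = 1
        group
      map_mul' := by
        intro a b
        apply Subtype.ext
        change x * (a * b) * x⁻¹ * ((a : G) * b)⁻¹ = x * a * x⁻¹ * (a : G)⁻¹ * (x * b * x⁻¹ * (b : G)⁻¹)
        have h6 := hz _ (h5 b b.2) (a : G)
        calc x * (a * b) * x⁻¹ * ((a : G) * b)⁻¹ = x * a * x⁻¹ * (x * b * x⁻¹ * (b : G)⁻¹) * (a : G)⁻¹ := by group
          _ = x * a * x⁻¹ * ((a : G)⁻¹ * (a * (x * b * x⁻¹ * (b : G)⁻¹))) * (a : G)⁻¹ := by group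
          _ = x * a * x⁻¹ * ((a : G)⁻¹ * ((x * b * x⁻¹ * (b : G)⁻¹) * a)) * (a : G)⁻¹ := by rw [h6]
          _ = _ := by group }
  have h6 := card_ker_mul θ
  have h7 : Nat.card θ.range ≤ 2 := by
    rw [← hk]
    exact Nat.card_le_card_of_injective _ θ.range.subtype_injective
  have h8 : Nat.card θ.ker ≤ Nat.card ↥(F.comap π ⊓ centralizer ({x} : Set G)) := by
    have h9 : ∀ d : θ.ker, ((d : F.comap π) : G) ∈ F.comap π ⊓ centralizer ({x} : Set G) := by
      intro d
      refine mem_inf.2 ⟨(d : F.comap π).2, mem_centralizer_singleton_iff.2 ?_⟩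
      have h10 := congrArg Subtype.val (MonoidHom.mem_ker.1 d.2)
      change x * (d : F.comap π) * x⁻¹ * ((d : F.comap π) : G)⁻¹ = 1 at h10
      exact (mul_inv_eq_iff_eq_mul.1 (mul_inv_eq_one.1 h10)).symm
    refine Nat.card_le_card_of_injective (fun d => (⟨_, h9 d⟩ : ↥(F.comap π ⊓ centralizer ({x} : Set G)))) ?_
    intro a b hab
    have h10 : ((a : F.comap π) : G) = ((b : F.comap π) : G) := Subtype.mk.inj hab
    exact Subtype.ext (Subtype.ext h10)
  have h9 : Nat.card F * 2 ≤ 2 * Nat.card θ.ker := by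
    calc Nat.card F * 2 ≤ Nat.card F * Nat.card h.ker := Nat.mul_le_mul_left _ h2
      _ = Nat.card (F.comap π) := h1.symm
      _ = Nat.card θ.range * Nat.card θ.ker := h6
      _ ≤ 2 * Nat.card θ.ker := Nat.mul_le_mul_right _ h7
  omega

/-- **main lemma** -/
theorem cent_ge (π : G →* K) (hπ : Function.Surjective π) (hz : ∀ u ∈ π.ker, ∀ g : G, u * g = g * u)
    (hk : Nat.card π.ker = 2) {R : Subgroup K} [R.Normal] (hc : ∀ a b : R, a * b = b * a)
    (hs : ∀ a : R, a * a = 1) (hR : Nat.card R = 256) (x : G)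
    (hm : orderOf ((QuotientGroup.mk' R) (π x)) ∣ 4) : 16 ≤ Nat.card (centralizer ({x} : Set G)) := by
  set m := orderOf ((QuotientGroup.mk' R) (π x)) with hmdef
  have hm' : m = 1 ∨ m = 2 ∨ m = 4 := by
    have h1 : m ∣ 2 ^ 2 := hm
    obtain ⟨k, hk, hk'⟩ := (Nat.dvd_prime_pow Nat.prime_two).1 h1
    interval_cases k <;> omega
  have hy : (π x) ^ m ∈ R := by
    have h1 := pow_orderOf_eq_one ((QuotientGroup.mk' R) (π x))
    rw [← hmdef, ← map_pow] at h1
    exact (QuotientGroup.eq_one_iff _).1 h1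
  have h1 := fix_ge hc hs hR (π x) hm' hy
  set F : Subgroup K := R ⊓ centralizer ({π x} : Set K) with hFdef
  have hF : ∀ a ∈ F, a * π x = π x * a := fun a ha => mem_centralizer_singleton_iff.1 (mem_inf.1 ha).2
  have h2 := comm_ge π hπ hz hk F x hF
  let χ : centralizer ({x} : Set G) →* K ⧸ R :=
    ((QuotientGroup.mk' R).comp π).comp (centralizer ({x} : Set G)).subtype
  have h3 := card_ker_mul χ
  have h4 : Nat.card F ≤ Nat.card χ.ker := by
    refine h2.trans ?_
    have h5 : ∀ d : ↥(F.comap π ⊓ centralizer ({x} : Set G)), (d : G) ∈ centralizer ({x} : Set G) :=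
      fun d => (mem_inf.1 d.2).2
    have h6 : ∀ d : ↥(F.comap π ⊓ centralizer ({x} : Set G)), (⟨d, h5 d⟩ : centralizer ({x} : Set G)) ∈ χ.ker := by
      intro d
      rw [MonoidHom.mem_ker]
      have h7 : π d ∈ R := (mem_inf.1 ((mem_inf.1 d.2).1 : π d ∈ F)).1
      exact (QuotientGroup.eq_one_iff _).2 h7
    refine Nat.card_le_card_of_injective (fun d => (⟨⟨d, h5 d⟩, h6 d⟩ : χ.ker)) ?_
    intro a b hab
    have h7 : (a : G) = (b : G) := Subtype.mk.inj (Subtype.mk.inj hab)
    exact Subtype.ext h7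
  have h5 : m ≤ Nat.card χ.range := by
    have h6 : (QuotientGroup.mk' R) (π x) ∈ χ.range :=
      ⟨⟨x, mem_centralizer_singleton_iff.2 rfl⟩, rfl⟩
    have h7 : orderOf (⟨_, h6⟩ : χ.range) ≤ Nat.card χ.range := orderOf_le_card
    rwa [Subgroup.orderOf_mk] at h7
  calc 16 ≤ m * Nat.card F := h1
    _ ≤ Nat.card χ.range * Nat.card χ.ker := Nat.mul_le_mul h5 h4
    _ = _ := h3.symm

end main

end Cfsg.Agent.H714.HN
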